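/-
`p`-radical subgroups of `SL_n`: a regular element centralizing a non-trivial one is scalar.
-/
import Cfsg.Agent.Lib.SLn.Mono

set_option autoImplicit false

namespace Cfsg.Agent.Lib.SLn

open Cfsg Matrix

open Cfsg.Agent.Lib.GLFlag (SLn)

/-- The normalizer growth argument for a radical subgroup. -/
theorem rad_le {G : Type*} [Group G] [Finite G] {p : ℕ} [Fact p.Prime] {D A : Subgroup G} (hD : IsPGroup p D)
    (hA : IsPGroup p A) (hnorm : ∀ n ∈ Subgroup.normalizer (D : Set G), ∀ a ∈ A, n * a * n⁻¹ ∈ A)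
    (hrad : ∀ Q : Subgroup (Subgroup.normalizer (D : Set G)), Q.Normal → IsPGroup p Q →
      Q ≤ D.subgroupOf (Subgroup.normalizer (D : Set G))) : A ≤ D := by
  classical
  have hWN : ∀ w ∈ A, w ∈ Subgroup.normalizer (D : Set G) → w ∈ D := by
    intro w hw hwN
    set N := Subgroup.normalizer (D : Set G) with hNdef
    have hQn : (A.subgroupOf N).Normal := by
      constructor
      intro a ha b
      exact Subgroup.mem_subgroupOf.2 (hnorm b.1 b.2 a.1 (Subgroup.mem_subgroupOf.1 ha))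
    have hQp : IsPGroup p ↥(A.subgroupOf N) := hA.comap_of_injective _ (Subgroup.subtype_injective _)
    have h1 := hrad _ hQn hQp (Subgroup.mem_subgroupOf.2 hw : (⟨w, hwN⟩ : N) ∈ A.subgroupOf N)
    exact Subgroup.mem_subgroupOf.1 h1
  have hDN : D ≤ Subgroup.normalizer (A : Set G) := by
    intro d hd
    rw [Subgroup.mem_normalizer_iff]
    intro a
    have hdN : d ∈ Subgroup.normalizer (D : Set G) := Subgroup.le_normalizer hd
    refine ⟨fun ha => hnorm d hdN a ha, fun ha => ?_⟩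
    have h1 := hnorm d⁻¹ (inv_mem hdN) _ ha
    have e : d⁻¹ * (d * a * d⁻¹) * d⁻¹⁻¹ = a := by group
    rwa [e] at h1
  set R := D ⊔ A with hR
  have hRp : IsPGroup p ↥R := hD.to_sup_of_normal_right' hA hDN
  haveI : Group.IsNilpotent ↥R := hRp.isNilpotent
  have hDR : D ≤ R := le_sup_left
  by_contra hcon
  have hlt : D.subgroupOf R < ⊤ := by
    rw [lt_top_iff_ne_top]
    intro h
    apply hcon
    intro w hw
    have h2 : (⟨w, le_sup_right (a := D) hw⟩ : R) ∈ D.subgroupOf R := by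
      rw [h]
      trivial
    exact Subgroup.mem_subgroupOf.1 h2
  have hnc := Group.normalizerCondition_of_isNilpotent (G := ↥R) _ hlt
  obtain ⟨w, hw1, hw2⟩ := SetLike.exists_of_lt hnc
  -- `w` normalizes `D`
  have hwN : (w : G) ∈ Subgroup.normalizer (D : Set G) := by
    rw [Subgroup.mem_normalizer_iff]
    intro d
    constructor
    · intro hd
      have hd' : (⟨d, hDR hd⟩ : R) ∈ D.subgroupOf R := Subgroup.mem_subgroupOf.2 hd
      have h3 := (Subgroup.mem_normalizer_iff.1 hw1 _).1 hd'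
      exact Subgroup.mem_subgroupOf.1 h3
    · intro hd
      have hdW : d ∈ R := by
        have h3 : (w : G) * d * (w : G)⁻¹ ∈ R := hDR hd
        have e : d = (w : G)⁻¹ * ((w : G) * d * (w : G)⁻¹) * w := by group
        rw [e]
        exact mul_mem (mul_mem (inv_mem w.2) h3) w.2
      have hd' : (⟨d, hdW⟩ : R) ∈ D.subgroupOf R := by
        refine (Subgroup.mem_normalizer_iff.1 hw1 _).2 ?_
        exact Subgroup.mem_subgroupOf.2 hd
      exact Subgroup.mem_subgroupOf.1 hd'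
  -- write `w = d a`
  have hwm : (w : G) ∈ ((D ⊔ A : Subgroup G) : Set G) := w.2
  rw [Subgroup.coe_mul_of_left_le_normalizer_right _ _ hDN] at hwm
  obtain ⟨d, hd, a, ha, e⟩ := Set.mem_mul.1 hwm
  have ha2 : a ∈ Subgroup.normalizer (D : Set G) := by
    have e2 : a = d⁻¹ * w := by
      rw [← e]
      group
    rw [e2]
    exact mul_mem (inv_mem (Subgroup.le_normalizer hd)) hwN
  have h5 := hWN a ha ha2
  apply hw2
  refine Subgroup.mem_subgroupOf.2 ?_
  rw [← e]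
  exact mul_mem hd h5

variable {n : ℕ} {F : Type*} [Field F]

/-- The fixed points of a subgroup on the natural module. -/
def fixW (D : Subgroup (SLn n F)) : Submodule F (Fin n → F) where
  carrier := {v | ∀ d ∈ D, d.1 *ᵥ v = v}
  add_mem' := fun {a b} ha hb d hd => by rw [Matrix.mulVec_add, ha d hd, hb d hd]
  zero_mem' := fun d _ => Matrix.mulVec_zero _
  smul_mem' := fun c v hv d hd => by rw [Matrix.mulVec_smul, hv d hd]

lemma mem_fixW {D : Subgroup (SLn n F)} {v : Fin n → F} : v ∈ fixW D ↔ ∀ d ∈ D, d.1 *ᵥ v = v := Iff.rfl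

section

variable [Finite F]

/-- The group of elements acting trivially on a subspace and on the quotient. -/
def AA (W : Submodule F (Fin n → F)) : Subgroup (SLn n F) := subOf
  { carrier := {g | (∀ u, g.1 *ᵥ u - u ∈ W) ∧ ∀ w ∈ W, g.1 *ᵥ w = w}
    one_mem' := by
      refine ⟨fun u => ?_, fun w _ => Matrix.one_mulVec w⟩
      simp
    mul_mem' := by
      rintro a b ⟨ha, ha1⟩ ⟨hb, hb1⟩
      refine ⟨fun u => ?_, fun w hw => ?_⟩
      · rw [Matrix.SpecialLinearGroup.coe_mul, ← Matrix.mulVec_mulVec]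
        have e : a.1 *ᵥ (b.1 *ᵥ u) - u = (a.1 *ᵥ (b.1 *ᵥ u) - b.1 *ᵥ u) + (b.1 *ᵥ u - u) := by abel
        rw [e]
        exact add_mem (ha _) (hb _)
      · rw [Matrix.SpecialLinearGroup.coe_mul, ← Matrix.mulVec_mulVec, hb1 w hw, ha1 w hw] }

lemma mem_AA {W : Submodule F (Fin n → F)} {g : SLn n F} : g ∈ AA W ↔ (∀ u, g.1 *ᵥ u - u ∈ W) ∧ ∀ w ∈ W, g.1 *ᵥ w = w :=
  Iff.rfl

lemma AA_pow {W : Submodule F (Fin n → F)} {g : SLn n F} (hg : g ∈ AA W) (k : ℕ) (u : Fin n → F) :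
    (g ^ k).1 *ᵥ u = u + (k : F) • (g.1 *ᵥ u - u) := by
  induction k with
  | zero => simp
  | succ k ih =>
    rw [pow_succ', Matrix.SpecialLinearGroup.coe_mul, ← Matrix.mulVec_mulVec, ih, Matrix.mulVec_add, Matrix.mulVec_smul,
      hg.2 _ (hg.1 u)]
    push_cast
    rw [add_smul, one_smul]
    abel

theorem AA_pGroup (p : ℕ) [Fact p.Prime] [CharP F p] (W : Submodule F (Fin n → F)) : IsPGroup p (AA W) := by
  rintro ⟨g, hg⟩
  refine ⟨1, ?_⟩
  apply Subtype.ext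
  apply Subtype.ext
  have e : ((⟨g, hg⟩ ^ p ^ 1 : AA W) : SLn n F).1 = (g ^ p).1 := by
    simp
  rw [e]
  apply Matrix.mulVec_injective
  funext u
  rw [AA_pow hg, CharP.cast_eq_zero, zero_smul, add_zero]
  simp

end

/-- The normalizer stabilizes the fixed points. -/
lemma normalizer_fixW {D : Subgroup (SLn n F)} {h : SLn n F} (hh : h ∈ Subgroup.normalizer (D : Set (SLn n F)))
    {w : Fin n → F} (hw : w ∈ fixW D) : h.1 *ᵥ w ∈ fixW D := by
  intro d hd
  have h1 : h⁻¹ * d * h ∈ D := by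
    have := (Subgroup.mem_normalizer_iff.1 (inv_mem hh) d).1 hd
    simpa using this
  have e0 : d * h = h * (h⁻¹ * d * h) := by group
  have e : d.1 * h.1 = h.1 * (h⁻¹ * d * h).1 := congrArg Subtype.val e0
  rw [Matrix.mulVec_mulVec, e, ← Matrix.mulVec_mulVec, hw _ h1]

lemma mul_inv_mulVec (h : SLn n F) (u : Fin n → F) : h.1 *ᵥ ((h⁻¹ : SLn n F).1 *ᵥ u) = u := by
  rw [Matrix.mulVec_mulVec, coe_mul_inv, Matrix.one_mulVec]

/-- The normalizer normalizes the group of elements trivial on the fixed points and the quotient. -/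
lemma normalizer_AA [Finite F] {D : Subgroup (SLn n F)} {h a : SLn n F} (hh : h ∈ Subgroup.normalizer (D : Set (SLn n F)))
    (ha : a ∈ AA (fixW D)) : h * a * h⁻¹ ∈ AA (fixW D) := by
  have e : ∀ u, (h * a * h⁻¹).1 *ᵥ u = h.1 *ᵥ (a.1 *ᵥ ((h⁻¹ : SLn n F).1 *ᵥ u)) := by
    intro u
    rw [Matrix.SpecialLinearGroup.coe_mul, Matrix.SpecialLinearGroup.coe_mul, Matrix.mulVec_mulVec, Matrix.mulVec_mulVec]
  refine ⟨fun u => ?_, fun w hw => ?_⟩
  · rw [e]
    have e2 : h.1 *ᵥ (a.1 *ᵥ ((h⁻¹ : SLn n F).1 *ᵥ u)) - u =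
        h.1 *ᵥ (a.1 *ᵥ ((h⁻¹ : SLn n F).1 *ᵥ u) - (h⁻¹ : SLn n F).1 *ᵥ u) := by
      rw [Matrix.mulVec_sub, mul_inv_mulVec]
    rw [e2]
    exact normalizer_fixW hh (ha.1 _)
  · rw [e, ha.2 _ (normalizer_fixW (inv_mem hh) hw), mul_inv_mulVec]

/-- The transvections. -/
def tv (v φ : Fin n → F) (h : φ ⬝ᵥ v = 0) : SLn n F :=
  ⟨1 + vecMulVec v φ, by
    rw [Matrix.vecMulVec_eq Unit, Matrix.det_one_add_replicateCol_mul_replicateRow, h, add_zero]⟩

lemma tv_mulVec (v φ : Fin n → F) (h : φ ⬝ᵥ v = 0) (u : Fin n → F) : (tv v φ h).1 *ᵥ u = u + (φ ⬝ᵥ u) • v := by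
  show (1 + vecMulVec v φ) *ᵥ u = _
  rw [Matrix.add_mulVec, Matrix.one_mulVec, Matrix.vecMulVec_mulVec, op_smul_eq_smul]

/-- The annihilator of a subspace determines the subspace. -/
lemma exists_ann {W : Submodule F (Fin n → F)} {u : Fin n → F} (hu : u ∉ W) : ∃ φ : Fin n → F, (∀ w ∈ W, φ ⬝ᵥ w = 0) ∧ φ ⬝ᵥ u ≠ 0 := by
  classical
  have h := (Subspace.forall_mem_dualAnnihilator_apply_eq_zero_iff W u).not.2 hu
  push Not at h
  obtain ⟨f, hf, hfu⟩ := h
  have e : ∀ y : Fin n → F, f y = (fun i => f (Pi.single i 1)) ⬝ᵥ y := by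
    intro y
    have h1 := f.pi_apply_eq_sum_univ y
    have hs : ∀ i : Fin n, (fun j : Fin n => if i = j then (1 : F) else 0) = (Pi.single i (1 : F) : Fin n → F) := by
      intro i
      funext j
      simp [Pi.single_apply, eq_comm]
    rw [h1]
    simp only [hs]
    simp [dotProduct, mul_comm]
  refine ⟨fun i => f (Pi.single i 1), fun w hw => ?_, ?_⟩
  · rw [← e]
    exact (Submodule.mem_dualAnnihilator f).1 hf w hw
  · rw [← e]
    exact hfu

/-- An element commuting with all transvections attached to a proper subspace is essentially scalar. -/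
theorem scalar_of_comm {W : Submodule F (Fin n → F)} {v₀ u₁ : Fin n → F} (hv₀ : v₀ ∈ W) (hv₀0 : v₀ ≠ 0) (hu₁ : u₁ ∉ W)
    {x : SLn n F} (hx : ∀ (v φ : Fin n → F) (h : φ ⬝ᵥ v = 0), v ∈ W → (∀ w ∈ W, φ ⬝ᵥ w = 0) → x * tv v φ h = tv v φ h * x) :
    ∃ c : F, (∀ u, x.1 *ᵥ u - c • u ∈ W) ∧ ∀ w ∈ W, x.1 *ᵥ w = c • w := by
  have key : ∀ (v φ u : Fin n → F), v ∈ W → (∀ w ∈ W, φ ⬝ᵥ w = 0) → (φ ⬝ᵥ u) • (x.1 *ᵥ v) = (φ ⬝ᵥ (x.1 *ᵥ u)) • v := by
    intro v φ u hv hφ
    have h0 : φ ⬝ᵥ v = 0 := hφ v hv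
    have h1 := congrArg (fun g : SLn n F => g.1 *ᵥ u) (hx v φ h0 hv hφ)
    simp only [Matrix.SpecialLinearGroup.coe_mul, ← Matrix.mulVec_mulVec, tv_mulVec, Matrix.mulVec_add, Matrix.mulVec_smul] at h1
    exact add_left_cancel h1
  obtain ⟨φ₀, hφ₀, hφ₀u⟩ := exists_ann hu₁
  set c : F := (φ₀ ⬝ᵥ (x.1 *ᵥ u₁)) / (φ₀ ⬝ᵥ u₁) with hc
  have h1 : ∀ v ∈ W, x.1 *ᵥ v = c • v := by
    intro v hv
    have h2 := key v φ₀ u₁ hv hφ₀
    have h3 := congrArg (fun z => (φ₀ ⬝ᵥ u₁)⁻¹ • z) h2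
    simp only [smul_smul, inv_mul_cancel₀ hφ₀u, one_smul] at h3
    rw [h3, hc, div_eq_inv_mul]
  refine ⟨c, fun u => ?_, h1⟩
  by_contra hu
  obtain ⟨φ, hφ, hφu⟩ := exists_ann hu
  apply hφu
  have h2 := key v₀ φ u hv₀ hφ
  rw [h1 v₀ hv₀, smul_smul] at h2
  have h3 : (φ ⬝ᵥ u) * c = φ ⬝ᵥ (x.1 *ᵥ u) := smul_left_injective F hv₀0 h2
  rw [dotProduct_sub, dotProduct_smul, ← h3, smul_eq_mul, mul_comm]
  simp

/-- The final step: `x` is scalar. -/
theorem central_of_regular (hn : 0 < n) [Finite F] {W : Submodule F (Fin n → F)} {p : ℕ} [hp : Fact p.Prime] [CharP F p] {c : F} {x : SLn n F}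
    (h1 : ∀ u, x.1 *ᵥ u - c • u ∈ W) (h2 : ∀ w ∈ W, x.1 *ᵥ w = c • w) (hreg : ¬ p ∣ orderOf x) : x ∈ Subgroup.center (SLn n F) := by
  classical
  have hpp : p.Prime := hp.out
  haveI : Nonempty (Fin n) := ⟨⟨0, hn⟩⟩
  set N : Matrix (Fin n) (Fin n) F := x.1 - c • 1 with hNdef
  have hN : ∀ u, N *ᵥ u = x.1 *ᵥ u - c • u := by
    intro u
    rw [hNdef, Matrix.sub_mulVec, Matrix.smul_mulVec, Matrix.one_mulVec]
  have hNN : N * N = 0 := by
    apply Matrix.mulVec_injective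
    funext u
    rw [← Matrix.mulVec_mulVec, hN (N *ᵥ u), h2 _ (by rw [hN]; exact h1 u), sub_self]
    simp
  have hcomm : Commute (c • (1 : Matrix (Fin n) (Fin n) F)) N := by
    show (c • (1 : Matrix (Fin n) (Fin n) F)) * N = N * (c • 1)
    simp
  have hNp : N ^ p = 0 := by
    obtain ⟨k, hk⟩ : ∃ k, p = k + 2 := ⟨p - 2, by have := hpp.two_le; omega⟩
    rw [hk, pow_add, pow_two, hNN, mul_zero]
  have hX : x.1 = c • (1 : Matrix (Fin n) (Fin n) F) + N := by
    rw [hNdef]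
    abel
  have hXp : x.1 ^ p = c ^ p • (1 : Matrix (Fin n) (Fin n) F) := by
    rw [hX, add_pow_char_of_commute p hcomm, hNp, add_zero, smul_pow, one_pow]
  have hcop : p.Coprime (orderOf x) := (Nat.Prime.coprime_iff_not_dvd hpp).2 hreg
  obtain ⟨m, hm⟩ := exists_pow_eq_self_of_coprime hcop
  have hs : x.1 = (c ^ p) ^ m • (1 : Matrix (Fin n) (Fin n) F) := by
    conv_lhs => rw [← hm]
    rw [Matrix.SpecialLinearGroup.coe_pow, Matrix.SpecialLinearGroup.coe_pow, hXp, smul_pow, one_pow]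
  rw [Subgroup.mem_center_iff]
  intro g
  apply Subtype.ext
  rw [Matrix.SpecialLinearGroup.coe_mul, Matrix.SpecialLinearGroup.coe_mul, hs]
  simp

/-- A regular element centralizing a non-trivial radical `p`-subgroup is central. -/
theorem rad_sl (hn : 0 < n) [Fintype F] (p : ℕ) [hp : Fact p.Prime] [CharP F p] (D₀ : Subgroup (SLn n F)) (hD₀ : IsPGroup p D₀) (hne : D₀ ≠ ⊥)
    (hrad : ∀ Q : Subgroup (Subgroup.normalizer (D₀ : Set (SLn n F))), Q.Normal → IsPGroup p Q →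
      Q ≤ D₀.subgroupOf (Subgroup.normalizer (D₀ : Set (SLn n F))))
    (x : SLn n F) (hx : x ∈ Subgroup.centralizer (D₀ : Set (SLn n F))) (hreg : ¬ p ∣ orderOf x) : x ∈ Subgroup.center (SLn n F) := by
  classical
  have hpp : p.Prime := hp.out
  set W := fixW D₀ with hW
  -- non-trivial fixed points
  obtain ⟨v₀, hv₀, hv₀0⟩ : ∃ v ∈ W, v ≠ 0 := by
    letI act : MulAction D₀ (Fin n → F) :=
      { smul := fun d v => d.1.1 *ᵥ v
        one_smul := fun v => Matrix.one_mulVec v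
        mul_smul := fun a b v => (Matrix.mulVec_mulVec _ _ _).symm }
    have h2 : p ∣ Nat.card (Fin n → F) := by
      obtain ⟨f, _, hf⟩ := FiniteField.card F p
      rw [Nat.card_eq_fintype_card, Fintype.card_fun, Fintype.card_fin, hf, ← pow_mul]
      exact dvd_pow_self p (mul_ne_zero f.pos.ne' hn.ne')
    have h0 : (0 : Fin n → F) ∈ MulAction.fixedPoints D₀ (Fin n → F) := fun d => Matrix.mulVec_zero _
    obtain ⟨b, hb, hab⟩ := hD₀.exists_fixed_point_of_prime_dvd_card_of_fixed_point (Fin n → F) h2 h0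
    exact ⟨b, fun d hd => hb ⟨d, hd⟩, hab.symm⟩
  -- the fixed points are proper
  obtain ⟨u₁, hu₁⟩ : ∃ u, u ∉ W := by
    by_contra hcon
    push Not at hcon
    apply hne
    rw [Subgroup.eq_bot_iff_forall]
    intro d hd
    apply Subtype.ext
    apply Matrix.mulVec_injective
    funext u
    rw [hcon u d hd]
    simp
  have hAle : AA W ≤ D₀ := rad_le hD₀ (AA_pGroup p W) (fun _ hn a ha => normalizer_AA hn ha) hrad
  have hx' : ∀ (v φ : Fin n → F) (h : φ ⬝ᵥ v = 0), v ∈ W → (∀ w ∈ W, φ ⬝ᵥ w = 0) → x * tv v φ h = tv v φ h * x := by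
    intro v φ h hv hφ
    have hmem : tv v φ h ∈ AA W := by
      refine ⟨fun u => ?_, fun w hw => ?_⟩
      · rw [tv_mulVec, add_sub_cancel_left]
        exact W.smul_mem _ hv
      · rw [tv_mulVec, hφ w hw, zero_smul, add_zero]
    exact (Subgroup.mem_centralizer_iff.1 hx _ (hAle hmem)).symm
  obtain ⟨c, h1, h2⟩ := scalar_of_comm hv₀ hv₀0 hu₁ hx'
  exact central_of_regular hn h1 h2 hreg

end Cfsg.Agent.Lib.SLn
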