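/-
Fixed points of a unipotent subgroup in "projective and absolutely irreducible" modules, from a decomposition `G = U M U`.
-/
import Cfsg.Agent.Lib.BNSt.Yok

set_option autoImplicit false

namespace Cfsg.Agent.Lib.SLn

open Cfsg Cfsg.Agent.Lib.BNSt

section Main

variable {G : Type*} [Group G] [Fintype G] {U Tt : Subgroup G} {k L : Type*} [Field k] [AddCommGroup L]
  [Module k L] {ρ : G →* Module.End k L} {p : ℕ} [Fact p.Prime]

/-- The structure of the fixed points of `U`. -/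
theorem yok_main' [FiniteDimensional k L] (hpU : IsPGroup p U) (hp : (p : k) = 0)
    (hTU : ∀ t ∈ Tt, ∀ u ∈ U, t⁻¹ * u * t ∈ U)
    (hTc : ∀ s ∈ Tt, ∀ t ∈ Tt, s * t = t * s) (n₀ : G)
    (hBr : ∀ g, ∃ u₁ ∈ U, ∃ m, ∃ u₂ ∈ U, g = u₁ * m * u₂ ∧ (n₀⁻¹ * m ∈ Tt ∨ ∃ y ∈ U, y ≠ 1 ∧ m⁻¹ * y * m ∈ U))
    (hspan : ∀ X : Module.End k L, ∃ a : G → k, X = ∑ g, a g • ρ g)
    (hf : ∃ f : Module.End k L, ∑ g, ρ g * f * ρ g⁻¹ = 1) :
    (∀ v ∈ fixS ρ U, ∀ y ∈ fixS ρ U, v ≠ 0 → ∃ c : k, y = c • v) ∧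
      (∀ v ∈ fixS ρ U, v ≠ 0 → Nm ρ U (ρ n₀ v) ≠ 0) := by
  classical
  set I := fixS ρ U with hI
  obtain ⟨h, hh⟩ := exists_section hf U
  let r : L →ₗ[k] I := LinearMap.codRestrict I (Nm ρ U) Nm_mem_fix
  let CC : G → Module.End k I := fun g => r ∘ₗ ρ g ∘ₗ I.subtype
  have hCC : ∀ g (v : I), ((CC g v : I) : L) = Nm ρ U (ρ g v) := fun g v => rfl
  have hTI : ∀ t : Tt, ∀ x ∈ I, ρ (t : G) x ∈ I := by
    intro t x hx u hu
    have e : ρ u (ρ (t : G) x) = ρ (t : G) (ρ ((t : G)⁻¹ * u * t) x) := by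
      rw [← Module.End.mul_apply, ← Module.End.mul_apply, ← map_mul, ← map_mul]
      congr 2
      group
    have h1 : (t : G)⁻¹ * u * t ∈ U := hTU _ t.2 u hu
    rw [e, hx _ h1]
  let τ : Tt → Module.End k I := fun t => (ρ (t : G)).restrict (hTI t)
  have hτ : ∀ t (v : I), ((τ t v : I) : L) = ρ (t : G) v := fun t v => rfl
  let DD : Submodule k (Module.End k I) := Submodule.span k (Set.range τ)
  -- Step A
  have hA : ∀ g, ∃ D ∈ DD, CC g = CC n₀ * D := by
    intro g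
    obtain ⟨u₁, hu₁, m, u₂, hu₂, rfl, hw⟩ := hBr g
    rcases hw with ht | ⟨y, hy, hy1, hym⟩
    · let t : Tt := ⟨_, ht⟩
      refine ⟨τ t, Submodule.subset_span ⟨t, rfl⟩, ?_⟩
      ext v
      rw [Module.End.mul_apply, hCC, hCC, hτ]
      have e1 : ρ (u₁ * m * u₂) v = ρ u₁ (ρ m (ρ u₂ v)) := by simp
      rw [e1, v.2 u₂ hu₂, ← Module.End.mul_apply (Nm ρ U), Nm_mul hu₁]
      rw [← Module.End.mul_apply (ρ n₀), ← map_mul]
      simp [t]
    · refine ⟨0, zero_mem _, ?_⟩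
      rw [mul_zero]
      ext v
      rw [hCC]
      have e1 : ρ (u₁ * m * u₂) v = ρ u₁ (ρ m (ρ u₂ v)) := by simp
      rw [e1, v.2 u₂ hu₂, ← Module.End.mul_apply (Nm ρ U), Nm_mul hu₁]
      simpa using Nm_sing hp hpU hy hy1 hym v.2
  -- Step B
  obtain ⟨r', hr'⟩ := LinearMap.exists_leftInverse_of_injective I.subtype (Submodule.ker_subtype I)
  have hB : ∀ φ : Module.End k I, ∃ D ∈ DD, φ = CC n₀ * D := by
    intro φ
    obtain ⟨a, ha⟩ := hspan (h ∘ₗ I.subtype ∘ₗ φ ∘ₗ r')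
    choose D hD hD' using hA
    refine ⟨∑ g, a g • D g, Submodule.sum_mem _ fun g _ => Submodule.smul_mem _ _ (hD g), ?_⟩
    ext v
    rw [Finset.mul_sum]
    have e1 : ∀ g, CC n₀ * (a g • D g) = a g • CC g := by
      intro g
      rw [hD' g, mul_smul_comm]
    simp only [e1]
    have e2 : ((∑ g, a g • CC g) v : L) = Nm ρ U ((∑ g, a g • ρ g) v) := by
      simp only [LinearMap.sum_apply, LinearMap.smul_apply, map_sum, map_smul]
      simp only [AddSubmonoidClass.coe_finset_sum, Submodule.coe_smul, hCC]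
    rw [e2, ← ha]
    have e3 : r' (v : L) = v := by
      have := congrArg (fun F : I →ₗ[k] I => F v) hr'
      simpa using this
    simp only [LinearMap.comp_apply, Submodule.subtype_apply, e3]
    exact (hh _ (φ v).2).symm
  obtain ⟨D₀, hD₀, e0⟩ := hB 1
  have e0' : D₀ * CC n₀ = 1 := mul_eq_one_comm.1 e0.symm
  have hall : ∀ ψ : Module.End k I, ψ ∈ DD := by
    intro ψ
    obtain ⟨D, hD, e⟩ := hB (CC n₀ * ψ)
    have e1 : ψ = D := by
      calc ψ = D₀ * (CC n₀ * ψ) := by rw [← mul_assoc, e0', one_mul]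
        _ = D₀ * (CC n₀ * D) := by rw [e]
        _ = D := by rw [← mul_assoc, e0', one_mul]
    rw [e1]
    exact hD
  have hcomm1 : ∀ t : Tt, ∀ D ∈ DD, τ t * D = D * τ t := by
    intro t D hD
    induction hD using Submodule.span_induction with
    | mem x hx =>
      obtain ⟨s, rfl⟩ := hx
      ext v
      rw [Module.End.mul_apply, Module.End.mul_apply, hτ, hτ, hτ, hτ, ← Module.End.mul_apply, ← Module.End.mul_apply,
        ← map_mul, ← map_mul, hTc _ t.2 _ s.2]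
    | zero => simp
    | add x y _ _ hx hy => rw [mul_add, add_mul, hx, hy]
    | smul c x _ hx => rw [mul_smul_comm, smul_mul_assoc, hx]
  have hcomm : ∀ D₁ D₂ : Module.End k I, D₁ * D₂ = D₂ * D₁ := by
    intro D₁ D₂
    induction hall D₁ using Submodule.span_induction with
    | mem x hx =>
      obtain ⟨s, rfl⟩ := hx
      exact hcomm1 s _ (hall _)
    | zero => simp
    | add x y _ _ hx hy => rw [add_mul, mul_add, hx, hy]
    | smul c x _ hx => rw [smul_mul_assoc, mul_smul_comm, hx]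
  constructor
  · intro v hv y hy hv0
    let v' : I := ⟨v, hv⟩
    have hv0' : v' ≠ 0 := fun e => hv0 (congrArg Subtype.val e)
    obtain ⟨f, hf'⟩ : ∃ f : Module.Dual k I, f v' ≠ 0 := by
      by_contra hcon
      push Not at hcon
      exact hv0' ((Module.forall_dual_apply_eq_zero_iff k v').1 hcon)
    let y' : I := ⟨y, hy⟩
    have e := hcomm (f.smulRight y') (f.smulRight v')
    have e1 := congrArg (fun X : Module.End k I => X v') e
    simp only [Module.End.mul_apply, LinearMap.smulRight_apply] at e1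
    refine ⟨(f y') / f v', ?_⟩
    have e2 := congrArg (fun z : I => (z : L)) e1
    simp only [map_smul, smul_eq_mul, Submodule.coe_smul] at e2
    have e3 : ((f v') * (f v')) • y = ((f v') * (f y')) • v := e2
    rw [div_eq_inv_mul, mul_smul]
    rw [eq_inv_smul_iff₀ hf']
    have e4 := congrArg (fun z : L => (f v')⁻¹ • z) e3
    simp only [← mul_smul, ← mul_assoc, inv_mul_cancel₀ hf', one_mul] at e4
    exact e4
  · intro v hv hv0 h0
    apply hv0
    let v' : I := ⟨v, hv⟩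
    have e1 : CC n₀ v' = 0 := Subtype.ext h0
    have e2 : v' = 0 := by
      have := congrArg (fun X : Module.End k I => X v') e0'
      simp only [Module.End.mul_apply, e1, map_zero, Module.End.one_apply] at this
      exact this.symm
    exact congrArg Subtype.val e2

/-- A vector fixed by `U` is not fixed by an element moving no part of `U`. -/
theorem yok_no_fix' (hpU : IsPGroup p U) (hp : (p : k) = 0) {n₀ : G}
    (hne : ∀ v ∈ fixS ρ U, v ≠ 0 → Nm ρ U (ρ n₀ v) ≠ 0) {s : G}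
    (hsing : ∃ y ∈ U, y ≠ 1 ∧ (n₀ * s)⁻¹ * y * (n₀ * s) ∈ U)
    {v : L} (hv : v ∈ fixS ρ U) (hv0 : v ≠ 0) : ρ s v ≠ v := by
  intro h
  obtain ⟨y, hy, hy1, hym⟩ := hsing
  have h1 := Nm_sing hp hpU hy hy1 hym hv
  rw [map_mul, Module.End.mul_apply, h] at h1
  exact hne v hv hv0 h1

/-- The characters on a rank one torus are trivial. -/
theorem rank_one_fix {F : Type*} [Field F] [Fintype F] {n₀ : G}
    (hO1 : ∀ v ∈ fixS ρ U, ∀ y ∈ fixS ρ U, v ≠ 0 → ∃ c : k, y = c • v)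
    (hO2 : ∀ v ∈ fixS ρ U, v ≠ 0 → Nm ρ U (ρ n₀ v) ≠ 0)
    (hTU : ∀ t ∈ Tt, ∀ u ∈ U, t⁻¹ * u * t ∈ U)
    (x : Multiplicative F →* G) (hinj : Function.Injective x) (hxU : ∀ a, x a ∈ U)
    (s : G) (h : Fˣ →* G) (hh : ∀ c, h c ∈ Tt) (hss : s * s ∈ Tt)
    (hasc : ∀ a, (n₀ * s⁻¹) * x a * (n₀ * s⁻¹)⁻¹ ∈ U)
    (hdec : ∀ u ∈ U, ∃ a, ∃ y, u = x a * y ∧ ∀ b, s⁻¹ * ((x b)⁻¹ * y * x b) * s ∈ U)
    (hconj : ∀ t ∈ Tt, ∃ c : F, c ≠ 0 ∧ ∀ α : F, t * x (Multiplicative.ofAdd α) * t⁻¹ = x (Multiplicative.ofAdd (c * α)))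
    (hq : ∀ (α : F) (c : Fˣ), (c : F) = -α⁻¹ → α ≠ 0 →
      s * x (Multiplicative.ofAdd α) * s = x (Multiplicative.ofAdd (-α⁻¹)) * h c * s * x (Multiplicative.ofAdd (-α⁻¹)) * (s * s))
    (hp : (p : k) = 0) (hcard : p ∣ Fintype.card F) {v : L} (hv : v ∈ fixS ρ U) (hv0 : v ≠ 0) (c₁ : Fˣ) :
    ρ (h c₁) v = v := by
  classical
  have hTfix : ∀ t ∈ Tt, ρ t v ∈ fixS ρ U := by
    intro t ht u hu
    have e : ρ u (ρ t v) = ρ t (ρ (t⁻¹ * u * t) v) := by
      rw [← Module.End.mul_apply, ← Module.End.mul_apply, ← map_mul, ← map_mul]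
      congr 2
      group
    rw [e, hv _ (hTU t ht u hu)]
  have hθ : ∀ t : G, ∃ c : k, t ∈ Tt → ρ t v = c • v := by
    intro t
    by_cases ht : t ∈ Tt
    · obtain ⟨c, hc⟩ := hO1 v hv _ (hTfix t ht) hv0
      exact ⟨c, fun _ => hc⟩
    · exact ⟨0, fun h => absurd h ht⟩
  choose θ hθ using hθ
  have θ_mul : ∀ s ∈ Tt, ∀ t ∈ Tt, θ (s * t) = θ s * θ t := by
    intro s hs t ht
    apply smul_left_injective k hv0
    show θ (s * t) • v = (θ s * θ t) • v
    rw [← hθ _ (mul_mem hs ht), map_mul, Module.End.mul_apply, hθ t ht, map_smul, hθ s hs, smul_smul, mul_comm]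
  have hNx0 : Nx ρ x (ρ s v) ≠ 0 := by
    refine Nx_ne_zero (U := U) x hinj (n := n₀ * s⁻¹) hasc ?_
    rw [inv_mul_cancel_right]
    exact hO2 v hv hv0
  obtain ⟨d, hd⟩ := hO1 v hv _ (Nx_mem_fix x hdec hv) hv0
  have hd0 : d ≠ 0 := by
    rintro rfl
    rw [zero_smul] at hd
    exact hNx0 hd
  have hcomm : ∀ t ∈ Tt, ρ t * Nx ρ x = Nx ρ x * ρ t := by
    intro t ht
    obtain ⟨c, hc, ec⟩ := hconj t ht
    exact comm_Nx x (Multiplicative.toAdd.trans ((Equiv.mulLeft₀ c hc).trans Multiplicative.ofAdd)) (fun a => ec _)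
  let c₀ : Multiplicative F → Fˣ := fun a =>
    if ha : Multiplicative.toAdd a = 0 then 1 else Units.mk0 (-(Multiplicative.toAdd a)⁻¹) (neg_ne_zero.2 (inv_ne_zero ha))
  have hc₀ : ∀ a, a ≠ 1 → ((c₀ a : Fˣ) : F) = -(Multiplicative.toAdd a)⁻¹ := by
    intro a ha
    have ha0 : Multiplicative.toAdd a ≠ 0 := fun h => ha (Multiplicative.toAdd.injective h)
    simp only [c₀]
    rw [dif_neg ha0]
    rfl
  have hq' : ∀ a : Multiplicative F, a ≠ 1 → ∃ a₁ h' u, s * x a * s = x a₁ * h' * s * u * (s * s) ∧ ρ h' * Nx ρ x = Nx ρ x * ρ h' ∧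
      u ∈ U ∧ ρ h' v = θ (h (c₀ a)) • v := by
    intro a ha
    have ha0 : Multiplicative.toAdd a ≠ 0 := fun h => ha (Multiplicative.toAdd.injective h)
    refine ⟨Multiplicative.ofAdd (-(Multiplicative.toAdd a)⁻¹), h (c₀ a), x (Multiplicative.ofAdd (-(Multiplicative.toAdd a)⁻¹)),
      hq (Multiplicative.toAdd a) (c₀ a) (hc₀ a ha) ha0, hcomm _ (hh _), hxU _, hθ _ (hh _)⟩
  have hz := hθ (s * s) hss
  have hcard' : p ∣ Fintype.card (Multiplicative F) := by
    have e : Fintype.card (Multiplicative F) = Fintype.card F := Fintype.card_congr Multiplicative.toAdd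
    rw [e]
    exact hcard
  have hdq := Nx_quad x hp hcard' hxU hv hv0 hd0 hd hz (fun a => θ (h (c₀ a))) hq'
  have hS : ∑ a ∈ Finset.univ.filter (· ≠ (1 : Multiplicative F)), θ (h (c₀ a)) ≠ 0 := by
    intro h0
    rw [h0, mul_zero] at hdq
    exact hd0 hdq
  have hS2 : ∑ a ∈ Finset.univ.filter (· ≠ (1 : Multiplicative F)), θ (h (c₀ a)) = ∑ c : Fˣ, θ (h c) := by
    refine Finset.sum_nbij' c₀ (fun c => Multiplicative.ofAdd (-((c : F))⁻¹)) ?_ ?_ ?_ ?_ ?_
    · intro a _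
      exact Finset.mem_univ _
    · intro c _
      simp only [Finset.mem_filter, Finset.mem_univ, true_and]
      intro e
      have e2 : -((c : F))⁻¹ = 0 := Multiplicative.ofAdd.injective (by simpa using e)
      simp at e2
    · intro a ha
      simp only [Finset.mem_filter, Finset.mem_univ, true_and] at ha
      rw [hc₀ a ha]
      simp
    · intro c _
      apply Units.ext
      rw [hc₀]
      · simp
      · intro e
        have e2 : -((c : F))⁻¹ = 0 := Multiplicative.ofAdd.injective (by simpa using e)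
        simp at e2
    · intro a _
      rfl
  rw [hS2] at hS
  have h3 : θ (h c₁) * ∑ c : Fˣ, θ (h c) = ∑ c : Fˣ, θ (h c) := by
    rw [Finset.mul_sum]
    refine Fintype.sum_equiv (Equiv.mulLeft c₁) _ _ fun c => ?_
    rw [Equiv.coe_mulLeft, map_mul, θ_mul _ (hh _) _ (hh _)]
  have h4 : θ (h c₁) = 1 := by
    have h5 : (θ (h c₁) - 1) * ∑ c : Fˣ, θ (h c) = 0 := by
      rw [sub_mul, h3, one_mul, sub_self]
    rcases mul_eq_zero.1 h5 with h6 | h6
    · exact sub_eq_zero.1 h6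
    · exact absurd h6 hS
  rw [hθ _ (hh c₁), h4, one_smul]

end Main

end Cfsg.Agent.Lib.SLn
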