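/-
`SL_n`: an irreducible character of full `p`-part has fixed points on the Borel subgroup and on no larger parabolic subgroup.
-/
import Cfsg.Agent.Lib.SLn.Bru
import Cfsg.Agent.Lib.SLn.YokA
import Cfsg.Agent.Lib.BNSt.Lat
import Cfsg.Agent.Lib.Char.BrauerPerm
import Cfsg.Agent.Lib.Char.Invariants
import Cfsg.Agent.Lib.Char.DefectZero

set_option autoImplicit false

namespace Cfsg.Agent.Lib.SLn

open Cfsg Matrix Module Cfsg.Agent.Lib.BNSt Cfsg.Agent.Lib.Char

open Cfsg.Agent.Lib.GLFlag (SLn)

variable {n : ℕ} {F : Type*} [Field F]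

section

variable [Finite F]

lemma sing_of_ne {m : SLn n F} {w : Equiv.Perm (Fin n)} (hm : IsMono m.1 w) (hw : w ≠ Fin.revPerm) :
    ∃ y ∈ UU n F, y ≠ 1 ∧ m⁻¹ * y * m ∈ UU n F := by
  obtain ⟨a, b, hab, hw'⟩ := exists_asc hw
  have hne : a ≠ b := hab.ne
  refine ⟨xH a b hne (Multiplicative.ofAdd 1), xH_mem_UU a b hne hab _, ?_, conj_xH_mem hm a b hne hab hw' _⟩
  intro e
  have h := xH_inj a b hne (e.trans (map_one _).symm)
  exact one_ne_zero (Multiplicative.ofAdd.injective h)

end

section Main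

variable [Fintype F] {p : ℕ} [hpF : Fact p.Prime] [CharP F p] [Fintype (SLn n F)]
  {k L : Type*} [Field k] [AddCommGroup L] [Module k L] [FiniteDimensional k L]
  {ρ : SLn n F →* Module.End k L}

/-- The fixed points of `U` in a projective absolutely irreducible module. -/
theorem sl_yok (hn : 2 ≤ n) (hp : (p : k) = 0)
    (hspan : ∀ X : Module.End k L, ∃ a : SLn n F → k, X = ∑ g, a g • ρ g)
    (hf : ∃ f : Module.End k L, ∑ g, ρ g * f * ρ g⁻¹ = 1)
    {v : L} (hv : v ∈ fixS ρ (UU n F)) (hv0 : v ≠ 0) :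
    (∀ (a b : Fin n) (hab : a ≠ b), a.val + 1 = b.val → ρ (sE a b hab) v ≠ v) ∧ ∀ t ∈ TT n F, ρ t v = v := by
  classical
  have hn0 : 0 < n := by omega
  have hpU : IsPGroup p (UU n F) := UU_pGroup p hn0
  obtain ⟨n₀, hn₀⟩ := exists_mono (F := F) hn0 Fin.revPerm
  have hBr : ∀ g : SLn n F, ∃ u₁ ∈ UU n F, ∃ m, ∃ u₂ ∈ UU n F, g = u₁ * m * u₂ ∧
      (n₀⁻¹ * m ∈ TT n F ∨ ∃ y ∈ UU n F, y ≠ 1 ∧ m⁻¹ * y * m ∈ UU n F) := by
    intro g
    obtain ⟨u₁, hu₁, m, w, hm, u₂, hu₂, e⟩ := exists_bruhat_SL g
    refine ⟨u₁, hu₁, m, u₂, hu₂, e, ?_⟩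
    by_cases hw : w = Fin.revPerm
    · left
      subst hw
      have h1 := (IsMono.inv hn₀).mul hm
      rw [inv_mul_cancel] at h1
      exact h1
    · right
      exact sing_of_ne hm hw
  obtain ⟨hO1, hO2⟩ := yok_main' hpU hp (fun t ht u hu => TT_conj_UU ht hu) (fun s hs t ht => TT_comm hs ht) n₀ hBr hspan hf
  have hcard : p ∣ Fintype.card F := by
    obtain ⟨f, _, hf⟩ := FiniteField.card F p
    rw [hf]
    exact dvd_pow_self p f.pos.ne'
  refine ⟨fun a b hab hadj => ?_, ?_⟩
  · refine yok_no_fix' hpU hp hO2 ?_ hv hv0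
    refine sing_of_ne (w := Fin.revPerm * Equiv.swap a b) (hn₀.mul (sE_isMono a b hab)) ?_
    intro e
    have h1 : Equiv.swap a b = 1 := mul_left_cancel (a := Fin.revPerm) (by rw [e, mul_one])
    apply hab
    have h2 := congrArg (fun σ : Equiv.Perm (Fin n) => σ a) h1
    exact (by simpa using h2 : b = a).symm
  · let K : Subgroup (SLn n F) :=
      { carrier := {z | ρ z v = v}
        one_mem' := by simp
        mul_mem' := fun {a b} ha hb => by
          show ρ (a * b) v = v
          rw [map_mul, Module.End.mul_apply, hb, ha]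
        inv_mem' := fun {a} ha => by
          show ρ a⁻¹ v = v
          conv_lhs => rw [← (show ρ a v = v from ha)]
          rw [← Module.End.mul_apply, ← map_mul]
          simp }
    have hle : TT n F ≤ K := by
      refine TT_le K fun a b hab hadj c => ?_
      have hlt : a < b := by
        show a.val < b.val
        omega
      refine rank_one_fix (Tt := TT n F) hO1 hO2 (fun t ht u hu => TT_conj_UU ht hu) (xH a b hab) (xH_inj a b hab)
        (xH_mem_UU a b hab hlt) (sE a b hab) (hH a b hab) (hH_mem a b hab) (sE_sq_mem a b hab) ?_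
        (fun u hu => UU_dec hab hadj hu) (fun t ht => TT_conj_xH ht a b hab) (quad_rel a b hab) hp hcard hv hv0 c
      intro t
      have hm1 : IsMono (n₀ * (sE a b hab)⁻¹ : SLn n F).1 (Fin.revPerm * (Equiv.swap a b)⁻¹) :=
        hn₀.mul (IsMono.inv (sE_isMono a b hab))
      have hm2 := IsMono.inv hm1
      have h1 := conj_xH_mem hm2 a b hab hlt (by
        rw [inv_inv]
        simp only [Equiv.swap_inv, Equiv.Perm.mul_apply, Equiv.swap_apply_left, Equiv.swap_apply_right]
        exact Fin.rev_lt_rev.2 hlt) t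
      rwa [inv_inv] at h1
    exact fun t ht => hle ht

end Main

section Helpers

variable {G : Type*} [Group G] [Finite G] {m : ℕ} {O : ValuationSubring ℂ}

lemma Ac_mulVec' (A : G →* Matrix (Fin m) (Fin m) O) (g : G) (y : Fin m → O) :
    Ac A g *ᵥ (fun i => (y i : ℂ)) = fun i => ((A g *ᵥ y) i : ℂ) := by
  ext i
  exact (RingHom.map_mulVec O.subtype (A g) y i).symm

lemma Ar_mulVec' (A : G →* Matrix (Fin m) (Fin m) O) (g : G) (y : Fin m → O) :
    Ar A g *ᵥ (fun i => IsLocalRing.residue O (y i)) = fun i => IsLocalRing.residue O ((A g *ᵥ y) i) := by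
  ext i
  exact (RingHom.map_mulVec (IsLocalRing.residue O) (A g) y i).symm

/-- The multiplicity of a character in a permutation character. -/
lemma classInner_fix_eq' {V : Type*} [AddCommGroup V] [Module ℂ V] [FiniteDimensional ℂ V] [Fintype G]
    (ρ : Representation ℂ G V) (H : Subgroup G) :
    classInner ρ.character (fixedPointCharacter H) =
      (finrank ℂ (Representation.invariants (MonoidHom.comp ρ H.subtype)) : ℂ) := by
  classical
  haveI : Fintype H := Fintype.ofFinite _
  have h1 : fixedPointCharacter H = indFun H (fun _ => 1) := by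
    funext g
    exact (indFun_one_eq_fix H g).symm
  rw [h1, frobenius_reciprocity' H _ _ (IsCharacter.isClassFunction (isCharacter_character ρ))]
  exact classInner_restrict_one_eq_finrank ρ H

end Helpers

section Inner

variable [Fintype F] (p : ℕ) [hpF : Fact p.Prime] [CharP F p] [Fintype (SLn n F)]

/-- The main step: an irreducible representation of full `p`-part on parabolic subgroups. -/
theorem inner_par (hn2 : 2 ≤ n) {m : ℕ} (σ₀ : Representation ℂ (SLn n F) (Fin m → ℂ)) (hσ₀ : σ₀.IsIrreducible)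
    (hm : p ^ (Nat.card (SLn n F)).factorization p ∣ m) :
    (∀ P : Subgroup (SLn n F), UU n F ≤ P → (∃ (a b : Fin n) (hab : a ≠ b), a.val + 1 = b.val ∧ sE a b hab ∈ P) →
      classInner σ₀.character (fixedPointCharacter P) = 0) ∧
    (∀ P : Subgroup (SLn n F), (∀ g ∈ P, ∃ u ∈ UU n F, ∃ t ∈ TT n F, g = u * t) →
      classInner σ₀.character (fixedPointCharacter P) ≠ 0) := by
  classical
  have hpp : p.Prime := hpF.out
  have hn0' : 0 < n := by omega
  obtain ⟨O, hO⟩ := exists_valSub hpp
  obtain ⟨A, σ, hσ, hχ, hM⟩ := exists_integral_form O σ₀ hσ₀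
  have hM' : ∀ g, σ g = Matrix.toLin' (Ac A g) := hM
  rw [← hχ]
  obtain ⟨c, hc⟩ := red_orth hpp hO A hσ hM' hm
  have hn0 : 0 < m := by
    have h := finrank_pos_of_irr hσ
    simpa using h
  have hspan := red_span A hc
  have hf := red_proj A hc ⟨0, hn0⟩
  have hpk : ((p : ℕ) : IsLocalRing.ResidueField O) = 0 := by
    have h1 : ((p : O)) ∈ IsLocalRing.maximalIdeal O := by
      rw [← ValuationSubring.coe_mem_nonunits_iff]
      simpa using hO
    have h2 := (IsLocalRing.residue_eq_zero_iff _).2 h1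
    simpa using h2
  -- reduction of a fixed vector
  have hred : ∀ (x : Fin m → ℂ) (a : ℂ) (y : Fin m → O), (∀ i, (y i : ℂ) = a * x i) → ∀ g, σ g x = x →
      rRep A g (fun i => IsLocalRing.residue O (y i)) = fun i => IsLocalRing.residue O (y i) := by
    intro x a y hy g hg
    apply rRep_fix
    have e : (fun i => (y i : ℂ)) = a • x := by
      funext i
      simp [hy i]
    rw [e, Matrix.mulVec_smul]
    congr 1
    rw [hM', Matrix.toLin'_apply] at hg
    exact hg
  -- (A)
  have hA : ∀ (a b : Fin n) (hab : a ≠ b), a.val + 1 = b.val → ∀ x : Fin m → ℂ, (∀ u ∈ UU n F, σ u x = x) → σ (sE a b hab) x = x → x = 0 := by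
    intro a₀ b₀ hab hadj x hxU hxs
    by_contra hx
    obtain ⟨a, _, y, hy, hy0⟩ := exists_primitive (O := O) x hx
    refine (sl_yok (p := p) hn2 hpk hspan hf (v := fun i => IsLocalRing.residue O (y i)) (fun u hu => hred x a y hy u (hxU u hu)) hy0).1 a₀ b₀ hab hadj ?_
    exact hred x a y hy _ hxs
  -- (B)
  have hpU : IsPGroup p (UU n F) := UU_pGroup p hn0'
  have hB : ∃ x : Fin m → ℂ, x ≠ 0 ∧ (∀ u ∈ UU n F, σ u x = x) ∧ ∀ t ∈ TT n F, σ t x = x := by
    have hx₀ : ∃ x₀ : Fin m → ℂ, x₀ ≠ 0 ∧ ∀ u ∈ UU n F, σ u x₀ = x₀ := by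
      haveI : Fintype (UU n F) := Fintype.ofFinite _
      have h1 := classInner_restrict_one_eq_finrank σ (UU n F)
      have hirr : IsIrrCharacter (SLn n F) σ.character := ⟨m, σ, hσ, rfl⟩
      have hdeg : charDegree σ.character = m := by
        have := charDegree_natCast (χ := σ.character) (n := m) (by rw [Representation.char_one]; simp)
        exact this
      have h2 : classInner (fun k : UU n F => σ.character k) (fun _ => 1) = (Nat.card (UU n F) : ℂ)⁻¹ * m := by
        rw [classInner_def]
        simp only [map_one, mul_one]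
        congr 1
        rw [Finset.sum_eq_single 1]
        · simp [Representation.char_one]
        · intro u _ hu
          refine irr_eq_zero_of_full_ppart ⟨σ.character, hirr⟩ p hpp (by rw [hdeg]; exact hm) ?_
          obtain ⟨e, he⟩ := IsPGroup.iff_orderOf.1 hpU u
          rw [Subgroup.orderOf_coe, he]
          refine dvd_pow_self p ?_
          rintro rfl
          rw [pow_zero, orderOf_eq_one_iff] at he
          exact hu he
        · simp
      rw [h2] at h1
      have hne : Representation.invariants (MonoidHom.comp σ (UU n F).subtype) ≠ ⊥ := by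
        intro hbot
        rw [hbot, finrank_bot] at h1
        have h3 : (Nat.card (UU n F) : ℂ) ≠ 0 := by exact_mod_cast (Nat.card_pos (α := UU n F)).ne'
        have h4 : (m : ℂ) ≠ 0 := by exact_mod_cast hn0.ne'
        simp [h3, h4] at h1
      obtain ⟨x₀, hx₀, hx₀0⟩ := Submodule.exists_mem_ne_zero_of_ne_bot hne
      exact ⟨x₀, hx₀0, fun u hu => hx₀ ⟨u, hu⟩⟩
    obtain ⟨x₀, hx₀0, hx₀U⟩ := hx₀
    obtain ⟨a, _, y, hy, hy0⟩ := exists_primitive (O := O) x₀ hx₀0
    have hyU : (fun i => IsLocalRing.residue O (y i)) ∈ fixS (rRep A) (UU n F) := fun u hu => hred x₀ a y hy u (hx₀U u hu)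
    have hyB := (sl_yok (p := p) hn2 hpk hspan hf hyU hy0).2
    have hyC : (fun i => (y i : ℂ)) = a • x₀ := by
      funext i
      simp [hy i]
    have hyCU : ∀ u ∈ UU n F, σ u (fun i => (y i : ℂ)) = fun i => (y i : ℂ) := by
      intro u hu
      rw [hyC, map_smul, hx₀U u hu]
    haveI : Fintype (TT n F) := Fintype.ofFinite _
    let z : Fin m → O := ∑ t : TT n F, A t *ᵥ y
    have hzC : (fun i => (z i : ℂ)) = ∑ t : TT n F, σ t (fun i => (y i : ℂ)) := by
      funext i
      simp only [z, Finset.sum_apply, AddSubmonoidClass.coe_finset_sum]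
      refine Finset.sum_congr rfl fun t _ => ?_
      rw [hM', Matrix.toLin'_apply, Ac_mulVec']
    have hzR : (fun i => IsLocalRing.residue O (z i)) = (Nat.card (TT n F) : IsLocalRing.ResidueField O) • fun i => IsLocalRing.residue O (y i) := by
      have e1 : (fun i => IsLocalRing.residue O (z i)) = ∑ t : TT n F, rRep A t (fun i => IsLocalRing.residue O (y i)) := by
        funext i
        simp only [z, Finset.sum_apply, map_sum]
        refine Finset.sum_congr rfl fun t _ => ?_
        rw [rRep_apply, Ar_mulVec']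
      have e2 : ∀ t : TT n F, rRep A (t : SLn n F) (fun i => IsLocalRing.residue O (y i)) = fun i => IsLocalRing.residue O (y i) :=
        fun t => hyB t t.2
      rw [e1]
      simp only [e2]
      rw [Finset.sum_const, Finset.card_univ, Nat.card_eq_fintype_card, Nat.cast_smul_eq_nsmul]
    have hcard : (Nat.card (TT n F) : IsLocalRing.ResidueField O) ≠ 0 := by
      intro h0
      have hcop : Nat.Coprime (Nat.card (TT n F)) p :=
        ((Nat.Prime.coprime_iff_not_dvd hpp).2 (not_dvd_card_TT (n := n) (F := F) p)).symm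
      have e : ((Nat.gcd (Nat.card (TT n F)) p : ℕ) : ℤ) = (Nat.card (TT n F) : ℤ) * Nat.gcdA (Nat.card (TT n F)) p + (p : ℤ) * Nat.gcdB (Nat.card (TT n F)) p :=
        Nat.gcd_eq_gcd_ab _ _
      rw [hcop] at e
      have e2 := congrArg (fun w : ℤ => (w : IsLocalRing.ResidueField O)) e
      simp only [Nat.cast_one, Int.cast_one, Int.cast_add, Int.cast_mul, Int.cast_natCast, h0, hpk, zero_mul, add_zero] at e2
      exact one_ne_zero e2
    have hzT : ∀ t ∈ TT n F, σ t (∑ t₁ : TT n F, σ (t₁ : SLn n F) (fun i => (y i : ℂ))) = ∑ t₁ : TT n F, σ (t₁ : SLn n F) (fun i => (y i : ℂ)) := by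
      intro t ht
      have e1 : ∀ t₁ : TT n F, σ t (σ (t₁ : SLn n F) (fun i => (y i : ℂ))) = σ ((⟨t, ht⟩ * t₁ : TT n F) : SLn n F) (fun i => (y i : ℂ)) := by
        intro t₁
        rw [← Module.End.mul_apply, ← map_mul]
        rfl
      rw [map_sum]
      simp only [e1]
      exact Fintype.sum_equiv (Equiv.mulLeft (⟨t, ht⟩ : TT n F)) _ _ (fun _ => rfl)
    refine ⟨fun i => (z i : ℂ), ?_, ?_, ?_⟩
    · intro h0
      have h1 : z = 0 := by
        funext i
        exact Subtype.ext (congrFun h0 i)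
      have h2 : (fun i => IsLocalRing.residue O (z i)) = 0 := by
        rw [h1]
        funext i
        simp
      rw [hzR] at h2
      exact hy0 ((smul_eq_zero.1 h2).resolve_left hcard)
    · intro u hu
      rw [hzC, map_sum]
      refine Finset.sum_congr rfl fun t₁ _ => ?_
      have e4 : σ u (σ (t₁ : SLn n F) (fun i => (y i : ℂ))) = σ (t₁ : SLn n F) (σ ((t₁ : SLn n F)⁻¹ * u * t₁) (fun i => (y i : ℂ))) := by
        rw [← Module.End.mul_apply, ← Module.End.mul_apply, ← map_mul, ← map_mul]
        congr 2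
        group
      rw [e4, hyCU _ (TT_conj_UU t₁.2 hu)]
    · intro t ht
      rw [hzC]
      exact hzT t ht
  constructor
  · rintro P hUP ⟨a, b, hab, hadj, hs⟩
    rw [classInner_fix_eq']
    have hbot : Representation.invariants (MonoidHom.comp σ P.subtype) = ⊥ := by
      rw [eq_bot_iff]
      intro x hx
      rw [Submodule.mem_bot]
      exact hA a b hab hadj x (fun u hu => hx ⟨u, hUP hu⟩) (hx ⟨_, hs⟩)
    rw [hbot, finrank_bot, Nat.cast_zero]
  · intro P hP
    rw [classInner_fix_eq']
    obtain ⟨x, hx0, hxU, hxT⟩ := hB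
    have hpos : Representation.invariants (MonoidHom.comp σ P.subtype) ≠ ⊥ := by
      intro hbot
      have hmem : x ∈ Representation.invariants (MonoidHom.comp σ P.subtype) := by
        rintro ⟨g, hg⟩
        obtain ⟨u, hu, t, ht, rfl⟩ := hP g hg
        show σ (u * t) x = x
        rw [map_mul, Module.End.mul_apply, hxT t ht, hxU u hu]
      rw [hbot, Submodule.mem_bot] at hmem
      exact hx0 hmem
    have h1 : finrank ℂ (Representation.invariants (MonoidHom.comp σ P.subtype)) ≠ 0 := by
      intro h0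
      exact hpos (Submodule.finrank_eq_zero.1 h0)
    exact_mod_cast h1

end Inner

end Cfsg.Agent.Lib.SLn
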