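/-
The Steinberg character of `SL_n`, and its uniqueness among the characters of full `p`-part.
-/
import Cfsg.Agent.Lib.SLn.Yok
import Cfsg.Agent.Lib.Degree.Inflate

set_option autoImplicit false

namespace Cfsg.Agent.Lib.SLn

open Cfsg Matrix

open Cfsg.Agent.Lib.GLFlag (SLn PSLn iSL iSL_val pSL pSL_surj parSL parPSL mem_parPSL_iff unipotentPSL
  isIrr_unipotentPSL unipotentPSL_one degree_St sum_comp)

universe u

variable {n : ℕ} {F : Type u} [Field F]

section Label

omit [Field F] in
lemma compLabel_mono (μ : Fin n → ℕ) {i j : Fin n} (h : i ≤ j) : compLabel μ i ≤ compLabel μ j := by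
  unfold compLabel
  apply Finset.card_le_card
  intro k hk
  simp only [Finset.mem_filter, Finset.mem_univ, true_and] at hk ⊢
  exact hk.trans h

lemma UU_le_parSL [Finite F] (μ : Fin n → ℕ) : UU n F ≤ parSL F μ := by
  intro u hu
  show ((iSL u : GL (Fin n) F) : Matrix (Fin n) (Fin n) F).BlockTriangular (compLabel μ)
  intro i j hij
  rw [iSL_val]
  apply hu.1 i j
  by_contra h
  exact absurd (compLabel_mono μ (not_lt.1 h)) (not_le.2 hij)

lemma sE_mem_parSL (a b : Fin n) (hab : a ≠ b) (μ : Fin n → ℕ) (h : compLabel μ a = compLabel μ b) :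
    sE (F := F) a b hab ∈ parSL F μ := by
  show ((iSL (sE a b hab) : GL (Fin n) F) : Matrix (Fin n) (Fin n) F).BlockTriangular (compLabel μ)
  intro i j hij
  rw [iSL_val]
  apply sE_isMono a b hab i j
  intro e
  subst e
  rw [Equiv.swap_apply_def] at hij
  split_ifs at hij with h1 h2
  · subst h1
    rw [h] at hij
    exact lt_irrefl _ hij
  · subst h2
    rw [h] at hij
    exact lt_irrefl _ hij
  · exact lt_irrefl _ hij

omit [Field F] in
/-- A part of size at least two gives an adjacent pair of positions with the same label. -/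
lemma exists_adj (μ : Fin n → ℕ) (hμ : ∑ i, μ i = n) {j₀ : Fin n} (h : 2 ≤ μ j₀) :
    ∃ a b : Fin n, a.val + 1 = b.val ∧ compLabel μ a = compLabel μ b := by
  classical
  set a₀ : ℕ := ∑ k ∈ Finset.univ.filter (fun k : Fin n => k < j₀), μ k with ha₀
  have hS : ∑ k ∈ Finset.univ.filter (fun k : Fin n => k ≤ j₀), μ k = a₀ + μ j₀ := by
    have e : Finset.univ.filter (fun k : Fin n => k ≤ j₀) = insert j₀ (Finset.univ.filter (fun k : Fin n => k < j₀)) := by
      ext k
      simp only [Finset.mem_filter, Finset.mem_univ, true_and, Finset.mem_insert]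
      exact le_iff_eq_or_lt
    rw [e, Finset.sum_insert (by simp), add_comm]
  have hle : ∑ k ∈ Finset.univ.filter (fun k : Fin n => k ≤ j₀), μ k ≤ n :=
    (Finset.sum_le_sum_of_subset (Finset.filter_subset _ _)).trans_eq hμ
  have h1 : a₀ + 1 < n := by omega
  refine ⟨⟨a₀, by omega⟩, ⟨a₀ + 1, h1⟩, rfl, ?_⟩
  unfold compLabel
  congr 1
  apply Finset.filter_congr
  intro j _
  show _ ≤ a₀ ↔ _ ≤ a₀ + 1
  constructor
  · intro h2
    omega
  · intro h2
    by_cases hj : j₀ ≤ j
    · exfalso
      have h3 : ∑ k ∈ Finset.univ.filter (fun k : Fin n => k ≤ j₀), μ k ≤ ∑ k ∈ Finset.univ.filter (fun k : Fin n => k ≤ j), μ k := by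
        apply Finset.sum_le_sum_of_subset
        intro k hk
        simp only [Finset.mem_filter, Finset.mem_univ, true_and] at hk ⊢
        exact hk.trans hj
      omega
    · apply Finset.sum_le_sum_of_subset
      intro k hk
      simp only [Finset.mem_filter, Finset.mem_univ, true_and] at hk ⊢
      exact lt_of_le_of_lt hk (not_le.1 hj)

omit [Field F] in
lemma compLabel_one (i : Fin n) : compLabel (fun _ : Fin n => 1) i = i.val := by
  classical
  unfold compLabel
  have e : ∀ j : Fin n, ∑ k ∈ Finset.univ.filter (fun k : Fin n => k ≤ j), 1 = j.val + 1 := by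
    intro j
    rw [Finset.sum_const, smul_eq_mul, mul_one, Finset.filter_ge_eq_Iic, Fin.card_Iic]
  simp only [e]
  have e2 : Finset.univ.filter (fun j : Fin n => j.val + 1 ≤ i.val) = Finset.Iio i := by
    ext j
    simp only [Finset.mem_filter, Finset.mem_univ, true_and, Finset.mem_Iio, Fin.lt_def]
    omega
  rw [e2, Fin.card_Iio]

/-- Upper triangular elements of `SL_n`. -/
lemma split_ut [Finite F] {g : SLn n F} (hg : ∀ k l, l < k → g.1 k l = 0) : ∃ u ∈ UU n F, ∃ t ∈ TT n F, g = u * t := by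
  have hdet : (Matrix.diagonal fun k => g.1 k k).det = 1 := by
    rw [Matrix.det_diagonal]
    have h := Matrix.det_of_isUpperTriangular (M := g.1) (fun k l hl => hg k l hl)
    rw [← h]
    exact g.2
  let t : SLn n F := ⟨Matrix.diagonal fun k => g.1 k k, hdet⟩
  have ht : t ∈ TT n F := isMono_diagonal _
  have hti : IsMono (t⁻¹ : SLn n F).1 1 := by
    have := IsMono.inv (g := t) ht
    simpa using this
  have hd : ∀ k, g.1 k k * (t⁻¹ : SLn n F).1 k k = 1 := by
    intro k
    have h := congrFun (congrFun (coe_mul_inv t) k) k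
    rw [IsMono.apply_mul (w := 1) ht] at h
    simpa [t] using h
  have he : ∀ k l, (g * t⁻¹ : SLn n F).1 k l = g.1 k l * (t⁻¹ : SLn n F).1 l l := by
    intro k l
    rw [Matrix.SpecialLinearGroup.coe_mul, IsMono.mul_apply (w := 1) hti]
    simp
  refine ⟨g * t⁻¹, ⟨fun k l hl => ?_, fun k => ?_⟩, t, ht, by group⟩
  · rw [he, hg k l hl, zero_mul]
  · rw [he, hd]

lemma par_one_split [Finite F] {g : SLn n F} (hg : g ∈ parSL F (fun _ : Fin n => 1)) : ∃ u ∈ UU n F, ∃ t ∈ TT n F, g = u * t := by
  refine split_ut fun k l hl => ?_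
  have h : ((iSL g : GL (Fin n) F) : Matrix (Fin n) (Fin n) F).BlockTriangular (compLabel (fun _ : Fin n => 1)) := hg
  rw [iSL_val] at h
  exact h (by rw [compLabel_one, compLabel_one]; exact hl)

end Label

section Infl

/-- The permutation characters of `PSL` on flags, inflated to `SL`. -/
theorem fix_infl (μ : Fin n → ℕ) (g : SLn n F) :
    fixedPointCharacter (parPSL F μ) (pSL g) = fixedPointCharacter (parSL F μ) g := by
  classical
  unfold fixedPointCharacter
  congr 1
  let φ : SLn n F ⧸ parSL F μ → PSLn n F ⧸ parPSL F μ :=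
    Quotient.map' (pSL (n := n) (F := F)) (by
      intro a b h
      rw [QuotientGroup.leftRel_apply] at h ⊢
      rw [← map_inv, ← map_mul]
      exact mem_parPSL_iff.2 h)
  have hφ : ∀ a : SLn n F, φ (QuotientGroup.mk a) = QuotientGroup.mk (pSL a) := fun a => rfl
  have hinj : Function.Injective φ := by
    intro x y
    obtain ⟨a, rfl⟩ := QuotientGroup.mk_surjective x
    obtain ⟨b, rfl⟩ := QuotientGroup.mk_surjective y
    rw [hφ, hφ, QuotientGroup.eq, QuotientGroup.eq, ← map_inv, ← map_mul]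
    exact mem_parPSL_iff.1
  have hsurj : Function.Surjective φ := by
    intro y
    obtain ⟨c, rfl⟩ := QuotientGroup.mk_surjective y
    obtain ⟨a, rfl⟩ := pSL_surj c
    exact ⟨QuotientGroup.mk a, rfl⟩
  have hequi : ∀ q, φ (g • q) = pSL g • φ q := by
    intro q
    obtain ⟨a, rfl⟩ := QuotientGroup.mk_surjective q
    show QuotientGroup.mk (pSL (g * a)) = QuotientGroup.mk (pSL g * pSL a)
    rw [map_mul]
  symm
  refine Nat.card_congr ((Equiv.ofBijective φ ⟨hinj, hsurj⟩).subtypeEquiv fun q => ?_)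
  simp only [MulAction.mem_fixedBy]
  show g • q = q ↔ pSL g • φ q = φ q
  rw [← hequi]
  exact hinj.eq_iff.symm

variable [Fintype F]

/-- The Steinberg character of `SL_n`. -/
noncomputable def StI (hn : 0 < n) : IrrCharacter (SLn n F) :=
  Cfsg.Agent.Lib.Degree.inflate (Subgroup.center (SLn n F))
    ⟨unipotentPSL F n (fun _ => 1), isIrr_unipotentPSL hn _ (fun _ _ _ => le_rfl) (by simp)⟩

lemma StI_eq (hn : 0 < n) (g : SLn n F) :
    (StI (F := F) hn).1 g = ∑ κ : Equiv.Perm (Fin n),
      if ∀ i : Fin n, (κ i).val ≤ 1 + i.val then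
        ((Equiv.Perm.sign κ : ℤ) : ℂ) * fixedPointCharacter (parSL F fun i : Fin n => 1 + i.val - (κ i).val) g
      else 0 := by
  show unipotentPSL F n (fun _ => 1) (pSL g) = _
  unfold unipotentPSL
  simp only [fix_infl]

lemma StI_one (hn : 0 < n) : (StI (F := F) hn).1 1 = ((Fintype.card F ^ n.choose 2 : ℕ) : ℂ) := by
  show unipotentPSL F n (fun _ => 1) (pSL 1) = _
  rw [map_one, unipotentPSL_one hn, degree_St _ rfl]
  push_cast
  rfl

lemma StI_deg (hn : 0 < n) : charDegree (StI (F := F) hn).1 = Fintype.card F ^ n.choose 2 := by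
  unfold charDegree
  rw [StI_one, Complex.natCast_re, Nat.floor_natCast]

/-- The multiplicity of a character in the Steinberg character. -/
lemma inner_St [Fintype (SLn n F)] (hn : 0 < n) (f : SLn n F → ℂ) :
    classInner f (StI (F := F) hn).1 = ∑ κ : Equiv.Perm (Fin n),
      if ∀ i : Fin n, (κ i).val ≤ 1 + i.val then
        ((Equiv.Perm.sign κ : ℤ) : ℂ) * classInner f (fixedPointCharacter (parSL F fun i : Fin n => 1 + i.val - (κ i).val))
      else 0 := by
  have e : ∀ g, (starRingEnd ℂ) ((StI (F := F) hn).1 g) = ∑ κ : Equiv.Perm (Fin n),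
      if ∀ i : Fin n, (κ i).val ≤ 1 + i.val then
        ((Equiv.Perm.sign κ : ℤ) : ℂ) * (starRingEnd ℂ) (fixedPointCharacter (parSL F fun i : Fin n => 1 + i.val - (κ i).val) g)
      else 0 := by
    intro g
    rw [StI_eq, map_sum]
    refine Finset.sum_congr rfl fun κ _ => ?_
    split_ifs
    · rw [map_mul, map_intCast]
    · simp
  simp only [classInner, e, Finset.mul_sum]
  rw [Finset.sum_comm]
  refine Finset.sum_congr rfl fun κ _ => ?_
  by_cases h : ∀ i : Fin n, (κ i).val ≤ 1 + i.val
  · simp only [if_pos h, Finset.mul_sum]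
    refine Finset.sum_congr rfl fun g _ => ?_
    ring
  · simp only [if_neg h]
    simp

/-- The uniqueness of the character of full `p`-part. -/
theorem St_unique [Fintype (SLn n F)] (hn2 : 2 ≤ n) (p : ℕ) [Fact p.Prime] [CharP F p] (χ : IrrCharacter (SLn n F))
    (hχ : p ^ (Nat.card (SLn n F)).factorization p ∣ charDegree (χ : SLn n F → ℂ)) : χ = StI (by omega) := by
  classical
  have hn0 : 0 < n := by omega
  obtain ⟨f, m, σ₀, hσ₀, rfl⟩ := χ
  have hdeg : charDegree σ₀.character = m := by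
    have := Cfsg.Agent.Lib.Char.charDegree_natCast (χ := σ₀.character) (n := m) (by rw [Representation.char_one]; simp)
    exact this
  have hχ' : p ^ (Nat.card (SLn n F)).factorization p ∣ m := by
    rw [← hdeg]
    exact hχ
  obtain ⟨hA, hB⟩ := inner_par p hn2 σ₀ hσ₀ hχ'
  by_contra hne
  have h0 : classInner σ₀.character (StI (F := F) hn0).1 = 0 :=
    Cfsg.Agent.Lib.Char.classInner_irr_of_ne ⟨m, σ₀, hσ₀, rfl⟩ (StI hn0).2 (fun e => hne (Subtype.ext e))
  rw [inner_St, Finset.sum_eq_single 1] at h0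
  · rw [if_pos (fun i => by simp)] at h0
    simp only [Equiv.Perm.sign_one, Units.val_one, Int.cast_one, one_mul, Equiv.Perm.one_apply, Nat.add_sub_cancel] at h0
    exact hB _ (fun g hg => par_one_split hg) h0
  · intro κ _ hκ
    by_cases h : ∀ i : Fin n, (κ i).val ≤ 1 + i.val
    · rw [if_pos h]
      have hsum := sum_comp (fun _ : Fin n => 1) (by simp) κ h
      obtain ⟨j₀, hj₀⟩ : ∃ j₀ : Fin n, 2 ≤ 1 + j₀.val - (κ j₀).val := by
        by_contra hcon
        push Not at hcon
        apply hκ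
        have hle : ∀ i ∈ Finset.univ, 1 + i.val - (κ i).val ≤ 1 := fun i _ => by
          have := hcon i
          omega
        have hs : ∑ i : Fin n, (1 + i.val - (κ i).val) = ∑ _i : Fin n, 1 := by
          rw [hsum]
          simp
        have h1 := (Finset.sum_eq_sum_iff_of_le hle).1 hs
        ext i
        have h2 := h1 i (Finset.mem_univ i)
        have h3 := h i
        simp only [Equiv.Perm.one_apply]
        omega
      obtain ⟨a, b, hadj, hl⟩ := exists_adj _ hsum hj₀
      have hab : a ≠ b := by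
        intro e
        rw [e] at hadj
        omega
      rw [hA _ (UU_le_parSL _) ⟨a, b, hab, hadj, sE_mem_parSL a b hab _ hl⟩, mul_zero]
    · rw [if_neg h]
  · simp

end Infl

section Part

variable [Fintype F]

/-- The `p`-part of the order of `SL_n`. -/
theorem ppart_SL (p : ℕ) [hp : Fact p.Prime] [CharP F p] (χdeg : ℕ) (h : χdeg = Fintype.card F ^ n.choose 2) :
    p ^ (Nat.card (SLn n F)).factorization p ∣ χdeg := by
  classical
  have hpp : p.Prime := hp.out
  set q := Fintype.card F with hq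
  obtain ⟨f, hf0, hf⟩ := FiniteField.card F p
  have hq1 : 1 ≤ q := Fintype.card_pos
  have hcop : ∀ r : ℕ, 0 < r → ¬ p ∣ Cfsg.Agent.Lib.GLFlag.qInt q r := by
    intro r hr hd
    have h1 : p ∣ q := by
      rw [hq, hf]
      exact dvd_pow_self p f.pos.ne'
    obtain ⟨r', rfl⟩ : ∃ r', r = r' + 1 := ⟨r - 1, by omega⟩
    have h2 : Cfsg.Agent.Lib.GLFlag.qInt q (r' + 1) = ∑ l ∈ Finset.range r', q ^ (l + 1) + 1 := by
      unfold Cfsg.Agent.Lib.GLFlag.qInt
      rw [Finset.sum_range_succ']
      simp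
    have h3 : p ∣ ∑ l ∈ Finset.range r', q ^ (l + 1) :=
      Finset.dvd_sum fun l _ => (dvd_pow h1 (by omega))
    rw [h2] at hd
    exact hpp.one_lt.ne' (Nat.dvd_one.1 ((Nat.dvd_add_right h3).1 hd))
  have h0 : (q ^ (n.choose 2)) = p ^ (f * n.choose 2) := by
    rw [hq, hf, pow_mul]
  have hM : Nat.card (SLn n F) ∣ Nat.card (GL (Fin n) F) :=
    Subgroup.card_dvd_of_injective _ Cfsg.Agent.Lib.GLFlag.iSL_inj
  rw [Cfsg.Agent.Lib.GLFlag.card_GL_fin] at hM
  have hq2 : ¬ p ∣ (q - 1) ^ n * Cfsg.Agent.Lib.GLFlag.qFac q n := by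
    intro hd
    rcases (hpp.dvd_mul).1 hd with h1 | h1
    · have h2 := hpp.dvd_of_dvd_pow h1
      have h3 : p ∣ q := by
        rw [hq, hf]
        exact dvd_pow_self p f.pos.ne'
      have h4 : q - 1 + 1 = q := by omega
      have h5 : p ∣ 1 := (Nat.dvd_add_right h2).1 (by rw [h4]; exact h3)
      exact hpp.one_lt.ne' (Nat.dvd_one.1 h5)
    · unfold Cfsg.Agent.Lib.GLFlag.qFac at h1
      obtain ⟨j, _, hj⟩ := (Prime.dvd_finset_prod_iff hpp.prime _).1 h1
      exact hcop (j + 1) (by omega) hj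
  have h1 : p ^ (Nat.card (SLn n F)).factorization p ∣ Nat.card (SLn n F) := Nat.ordProj_dvd _ _
  have h2 := h1.trans hM
  rw [mul_assoc, ← hq] at h2
  have hc : Nat.Coprime (p ^ (Nat.card (SLn n F)).factorization p) ((q - 1) ^ n * Cfsg.Agent.Lib.GLFlag.qFac q n) :=
    Nat.Coprime.pow_left _ ((Nat.Prime.coprime_iff_not_dvd hpp).2 hq2)
  rw [h]
  exact hc.dvd_of_dvd_mul_right h2

end Part

end Cfsg.Agent.Lib.SLn
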