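/-
The number of `p`-blocks of `SL_n` over a finite field of characteristic `p`.
-/
import Cfsg.Agent.Lib.SLn.St
import Cfsg.Agent.Lib.SLn.Rad
import Cfsg.Agent.Lib.BNSt.BlockCount

set_option autoImplicit false

namespace Cfsg.Agent.Lib.SLn

open Cfsg Matrix

open Cfsg.Agent.Lib.GLFlag (SLn)

universe u

variable {n : ℕ} {F : Type u} [Field F] [Fintype F]

lemma center_le_TT : Subgroup.center (SLn n F) ≤ TT n F := by
  intro z hz
  obtain ⟨r, -, hr⟩ := Matrix.SpecialLinearGroup.mem_center_iff.1 hz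
  show IsMono z.1 1
  rw [← hr]
  exact isMono_diagonal _

/-- The number of central elements. -/
lemma card_center_SL (hn : 0 < n) : Nat.card (Subgroup.center (SLn n F)) = Nat.gcd n (Fintype.card F - 1) := by
  classical
  have e := Matrix.SpecialLinearGroup.center_equiv_rootsOfUnity' (n := Fin n) (R := F) ⟨0, hn⟩
  rw [Nat.card_congr e.toEquiv, Fintype.card_fin]
  have h1 : (rootsOfUnity n F) = (powMonoidHom n : Fˣ →* Fˣ).ker := by
    ext x
    rw [mem_rootsOfUnity, MonoidHom.mem_ker, powMonoidHom_apply]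
  rw [h1, IsCyclic.card_powMonoidHom_ker, Nat.card_eq_fintype_card, Fintype.card_units, Nat.gcd_comm]

/-- The count of blocks. -/
theorem card_blocks_SL (hn2 : 2 ≤ n) (p : ℕ) [hp : Fact p.Prime] [CharP F p] (M : Ideal AlgInt) (hM : IsPModular p M) :
    Nat.card {B : Set (IrrCharacter (SLn n F)) // IsPBlock M B} = Nat.gcd n (Fintype.card F - 1) + 1 := by
  classical
  have hpp : p.Prime := hp.out
  have hn0 : 0 < n := by omega
  letI : Fintype (SLn n F) := Fintype.ofFinite _
  obtain ⟨U, hUU⟩ := (UU_pGroup (n := n) (F := F) p hn0).exists_le_sylow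
  have hU : (U : Subgroup (SLn n F)) ≠ ⊥ := by
    intro h0
    let a : Fin n := ⟨0, hn0⟩
    let b : Fin n := ⟨1, by omega⟩
    have hlt : a < b := by
      show (0 : ℕ) < 1
      omega
    have hab : a ≠ b := hlt.ne
    have h1 := hUU (xH_mem_UU (F := F) a b hab hlt (Multiplicative.ofAdd 1))
    rw [h0, Subgroup.mem_bot] at h1
    have h2 := xH_inj (F := F) a b hab (h1.trans (map_one _).symm)
    exact one_ne_zero (Multiplicative.ofAdd.injective h2)
  have hcount := Cfsg.Agent.Lib.BNSt.card_blocks_eq hM U hU (St := StI hn0)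
    (fun χ hχ => St_unique hn2 p χ hχ)
    (ppart_SL p _ (StI_deg hn0))
    (fun D₀ h1 h2 h3 x h4 h5 => rad_sl hn0 p D₀ h1 h2 h3 x h4 h5)
  rw [hcount, ← card_center_SL hn0]
  congr 1
  refine Nat.card_congr ⟨fun z => ⟨z.1, z.2.1⟩, fun z => ⟨z.1, z.2, ?_⟩, fun z => rfl, fun z => rfl⟩
  intro h
  have h1 := TT_pow_card (center_le_TT z.2)
  have h2 : p ∣ Fintype.card F - 1 := h.trans (orderOf_dvd_of_pow_eq_one h1)
  obtain ⟨f, _, hf⟩ := FiniteField.card F p
  have h3 : p ∣ Fintype.card F := by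
    rw [hf]
    exact dvd_pow_self p f.pos.ne'
  have h5 : Fintype.card F = (Fintype.card F - 1) + 1 := (Nat.sub_add_cancel Fintype.card_pos).symm
  rw [h5] at h3
  exact hpp.one_lt.ne' (Nat.dvd_one.1 ((Nat.dvd_add_right h2).1 h3))

end Cfsg.Agent.Lib.SLn
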